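import Cfsg.Agent.Lib.PrimeDegreeIto.TwinPrime
import Cfsg.Agent.S3572
import Mathlib.RingTheory.IntegralDomain

/-!
A fixed-point-free involution inverting the multiplications by squares and normalising the point
stabiliser makes a group studied by Ito triply transitive (a group of such permutations is primitive
and has a regular dihedral subgroup).
-/

namespace CfsgLib.PrimeDegreeIto

open MulAction
open scoped Pointwise

variable {p : ℕ} [Fact p.Prime]

/-- The non-zero points. -/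
abbrev NZ (p : ℕ) := {z : ZMod p // z ≠ 0}

/-- The point stabiliser as permutations of the non-zero points. -/
noncomputable def nzImage (G : Subgroup (Equiv.Perm (ZMod p))) : Subgroup (Equiv.Perm (NZ p)) where
  carrier := {π | ∃ g : G, g • (0 : ZMod p) = 0 ∧ ∀ z : NZ p, (π z : ZMod p) = g • (z : ZMod p)}
  one_mem' := ⟨1, one_smul _ _, fun z => by simp⟩
  mul_mem' := by
    rintro a b ⟨g, g0, hg⟩ ⟨k, k0, hk⟩
    refine ⟨g * k, by rw [mul_smul, k0, g0], fun z => ?_⟩
    rw [Equiv.Perm.mul_apply, hg, hk, mul_smul]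
  inv_mem' := by
    rintro a ⟨g, g0, hg⟩
    refine ⟨g⁻¹, inv_smul_eq_iff.2 g0.symm, fun z => ?_⟩
    rw [eq_inv_smul_iff, ← hg]
    simp

variable {G : Subgroup (Equiv.Perm (ZMod p))}

theorem exists_nzImage (g : G) (g0 : g • (0 : ZMod p) = 0) :
    ∃ π ∈ nzImage G, ∀ z : NZ p, (π z : ZMod p) = g • (z : ZMod p) :=
  ⟨(MulAction.toPerm g).subtypePerm fun z =>
      not_congr ⟨fun e => smul_left_cancel g (e.trans g0.symm), fun e => e ▸ g0⟩,
    ⟨g, g0, fun z => rfl⟩, fun z => rfl⟩

/-- Multiplication by a non-zero element. -/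
def scalePerm (u : (ZMod p)ˣ) : Equiv.Perm (NZ p) where
  toFun z := ⟨u * z.1, mul_ne_zero u.ne_zero z.2⟩
  invFun z := ⟨(u⁻¹ : (ZMod p)ˣ) * z.1, mul_ne_zero (u⁻¹ : (ZMod p)ˣ).ne_zero z.2⟩
  left_inv z := Subtype.ext (by
    show ((u⁻¹ : (ZMod p)ˣ) : ZMod p) * ((u : ZMod p) * z.1) = z.1
    rw [← mul_assoc, ← Units.val_mul, inv_mul_cancel, Units.val_one, one_mul])
  right_inv z := Subtype.ext (by
    show (u : ZMod p) * (((u⁻¹ : (ZMod p)ˣ) : ZMod p) * z.1) = z.1
    rw [← mul_assoc, ← Units.val_mul, mul_inv_cancel, Units.val_one, one_mul])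

theorem scalePerm_apply (u : (ZMod p)ˣ) (z : NZ p) :
    (scalePerm u z : ZMod p) = u * z.1 := rfl

theorem ItoGroup.three_of_swap (h : ItoGroup G) (hp7 : 7 < p) (τ : Equiv.Perm (NZ p))
    (hττ : τ * τ = 1) (hnorm : ∀ π ∈ nzImage G, τ * π * τ ∈ nzImage G)
    (hC : ∀ u : (ZMod p)ˣ, (u : ZMod p) ^ ((p - 1) / 2) = 1 →
      τ * scalePerm u * τ = scalePerm u⁻¹)
    (hfree : ∀ z, τ z ≠ z) (hmod : ((p - 1) / 2) % 2 = 1) :
    IsMultiplyPretransitive G (ZMod p) 3 := by
  classical
  have hp : p.Prime := Fact.out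
  have h5 := h.five
  obtain ⟨e, he⟩ : ∃ e, p = 2 * e + 1 := hp.odd_of_ne_two (by omega)
  have he2 : (p - 1) / 2 = e := by omega
  rw [he2] at hmod
  have he0 : 0 < e := by omega
  have : NeZero e := ⟨he0.ne'⟩
  -- the group generated by the stabiliser and the involution
  let S : Subgroup (Equiv.Perm (NZ p)) :=
    { carrier := {π | π ∈ nzImage G ∨ τ * π ∈ nzImage G}
      one_mem' := Or.inl (one_mem _)
      mul_mem' := by
        rintro a b (ha | ha) (hb | hb)
        · exact Or.inl (mul_mem ha hb)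
        · refine Or.inr ?_
          rw [show τ * (a * b) = τ * a * τ * (τ * b) by
            rw [mul_assoc (τ * a), ← mul_assoc τ τ b, hττ, one_mul, mul_assoc]]
          exact mul_mem (hnorm a ha) hb
        · refine Or.inr ?_
          rw [← mul_assoc]
          exact mul_mem ha hb
        · refine Or.inl ?_
          rw [show a * b = τ * (τ * a) * τ * (τ * b) by
            rw [← mul_assoc τ τ a, hττ, one_mul, mul_assoc a τ, ← mul_assoc τ τ b, hττ, one_mul]]
          exact mul_mem (hnorm _ ha) hb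
      inv_mem' := by
        rintro a (ha | ha)
        · exact Or.inl (inv_mem ha)
        · refine Or.inr ?_
          have hτi : τ⁻¹ = τ := inv_eq_of_mul_eq_one_right hττ
          rw [show τ * a⁻¹ = τ * (τ * a)⁻¹ * τ by
            rw [mul_inv_rev, hτi, mul_assoc, mul_assoc, hττ, mul_one]]
          exact hnorm _ (inv_mem ha) }
  have hKS : nzImage G ≤ S := fun π hπ => Or.inl hπ
  have hτS : τ ∈ S := Or.inr (by rw [hττ]; exact one_mem _)
  have hscale : ∀ u : (ZMod p)ˣ, (u : ZMod p) ^ e = 1 → scalePerm u ∈ nzImage G := by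
    intro u hu
    obtain ⟨g, hg⟩ := h.scale (u : ZMod p) (by rwa [he2])
    exact ⟨g, by rw [hg, mul_zero], fun z => by rw [hg, scalePerm_apply]⟩
  -- a root of order `e`
  obtain ⟨g₀, hg₀⟩ := IsCyclic.exists_generator (α := (ZMod p)ˣ)
  have hord : orderOf g₀ = p - 1 := by
    rw [orderOf_eq_card_of_forall_mem_zpowers hg₀, Nat.card_eq_fintype_card, ZMod.card_units]
  let u₀ : (ZMod p)ˣ := g₀ ^ 2
  have hu₀ : orderOf u₀ = e := by
    rw [orderOf_pow' _ two_ne_zero, hord, show p - 1 = 2 * e by omega,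
      Nat.gcd_mul_right_left, Nat.mul_div_cancel_left _ two_pos]
  have hroot : ∀ n : ℕ, ((u₀ ^ n : (ZMod p)ˣ) : ZMod p) ^ e = 1 := fun n => by
    rw [← Units.val_pow_eq_pow_val, ← pow_mul, mul_comm, pow_mul, ← hu₀, pow_orderOf_eq_one,
      one_pow, Units.val_one]
  let c : ZMod e → Equiv.Perm (NZ p) := fun i => scalePerm (u₀ ^ i.val)
  have hcadd : ∀ i j, c (i + j) = c i * c j := fun i j => by
    have : u₀ ^ (i + j).val = u₀ ^ i.val * u₀ ^ j.val := by
      rw [← pow_add, pow_eq_pow_iff_modEq, hu₀, ZMod.val_add]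
      exact Nat.mod_modEq _ _
    refine Equiv.ext fun z => Subtype.ext ?_
    simp only [c, Equiv.Perm.mul_apply, scalePerm_apply, this, Units.val_mul, mul_assoc]
  have hc0 : c 0 = 1 := by
    refine Equiv.ext fun z => Subtype.ext ?_
    simp [c, scalePerm_apply]
  have hcneg : ∀ i, τ * c i * τ = c (-i) := fun i => by
    have h1 := hC (u₀ ^ i.val) (by rw [he2]; exact hroot _)
    refine h1.trans ?_
    have : (u₀ ^ i.val)⁻¹ = u₀ ^ (-i).val := by
      refine inv_eq_of_mul_eq_one_right ?_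
      rw [← pow_add, ← orderOf_dvd_iff_pow_eq_one, hu₀, ← ZMod.natCast_eq_zero_iff, Nat.cast_add,
        ZMod.natCast_zmod_val, ZMod.natCast_zmod_val, add_neg_cancel]
    rw [this]
  have hswap : ∀ i, c i * τ = τ * c (-i) := fun i => by
    rw [← hcneg, ← mul_assoc, ← mul_assoc, hττ, one_mul]
  let φ : DihedralGroup e →* Equiv.Perm (NZ p) := MonoidHom.mk'
    (fun d => match d with
      | DihedralGroup.r i => c i
      | DihedralGroup.sr i => τ * c i)
    (by
      rintro (i | i) (j | j)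
      · rw [DihedralGroup.r_mul_r]; exact hcadd i j
      · rw [DihedralGroup.r_mul_sr]
        show τ * c (j - i) = c i * (τ * c j)
        rw [← mul_assoc, hswap, mul_assoc, ← hcadd, sub_eq_neg_add]
      · rw [DihedralGroup.sr_mul_r]
        show τ * c (i + j) = τ * c i * c j
        rw [hcadd, mul_assoc]
      · rw [DihedralGroup.sr_mul_sr]
        show c (j - i) = τ * c i * (τ * c j)
        rw [← mul_assoc, hcneg, ← hcadd, sub_eq_neg_add])
  have hφS : φ.range ≤ S := by
    rintro _ ⟨(i | i), rfl⟩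
    · exact hKS (hscale _ (hroot _))
    · exact mul_mem hτS (hKS (hscale _ (hroot _)))
  let one : NZ p := ⟨1, one_ne_zero⟩
  have hsq : ∀ a : ZMod p, a ^ e = 1 → ∃ i : ZMod e, (c i one : ZMod p) = a := by
    intro a ha
    have ha0 : a ≠ 0 := fun h0 => by rw [h0, zero_pow he0.ne'] at ha; exact zero_ne_one ha
    obtain ⟨n, hn⟩ :=
      (IsOfFinOrder.mem_powers_iff_mem_zpowers (isOfFinOrder_of_finite g₀)).2 (hg₀ (Units.mk0 a ha0))
    simp only at hn
    have hdvd : p - 1 ∣ n * e := by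
      rw [← hord, orderOf_dvd_iff_pow_eq_one, pow_mul, hn]
      exact Units.ext (by simpa using ha)
    rw [show p - 1 = 2 * e by omega] at hdvd
    obtain ⟨k, hk⟩ := Nat.dvd_of_mul_dvd_mul_right he0 hdvd
    refine ⟨(k : ZMod e), ?_⟩
    have : u₀ ^ (k : ZMod e).val = Units.mk0 a ha0 := by
      rw [← hn, hk, pow_mul, pow_eq_pow_iff_modEq, hu₀, ZMod.val_natCast]
      exact Nat.mod_modEq _ _
    simp only [c, scalePerm_apply, this]
    simp [one]
  have htau : (τ one : ZMod p) ^ e = -1 := by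
    rcases h.pow_half (τ one).2 with h1 | h1 <;> rw [he2] at h1
    · exfalso
      obtain ⟨i, hi⟩ := hsq _ h1
      -- a square root of `u₀ ^ i` would give a fixed point
      obtain ⟨j, rfl⟩ : ∃ j, i = j + j := by
        obtain ⟨m, hm⟩ : ∃ m, e = 2 * m + 1 := ⟨e / 2, by omega⟩
        refine ⟨(m + 1 : ℕ) * i, ?_⟩
        have : ((2 * (m + 1) : ℕ) : ZMod e) = 1 := by
          rw [show 2 * (m + 1) = e + 1 by omega, Nat.cast_add, ZMod.natCast_self, zero_add,
            Nat.cast_one]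
        rw [← two_mul, ← mul_assoc, ← Nat.cast_ofNat, ← Nat.cast_mul, this, one_mul]
      refine hfree (c j one) ?_
      have hi' : τ one = c (j + j) one := Subtype.ext hi.symm
      calc τ (c j one) = (τ * c j) one := rfl
        _ = (c (-j) * τ) one := by rw [hswap, neg_neg]
        _ = c (-j) (c (j + j) one) := by rw [Equiv.Perm.mul_apply, hi']
        _ = c j one := by
          rw [← Equiv.Perm.mul_apply, ← hcadd, neg_add_cancel_left]
    · exact h1
  have hDtr : ∀ z : NZ p, ∃ d, φ d one = z := by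
    intro z
    rcases h.pow_half z.2 with h1 | h1 <;> rw [he2] at h1
    · obtain ⟨i, hi⟩ := hsq _ h1
      exact ⟨DihedralGroup.r i, Subtype.ext hi⟩
    · obtain ⟨i, hi⟩ := hsq ((z : ZMod p) / (τ one : ZMod p))
        (by rw [div_pow, h1, htau, div_self (neg_ne_zero.2 one_ne_zero)])
      refine ⟨DihedralGroup.sr (-i), ?_⟩
      show (τ * c (-i)) one = z
      rw [← hswap, Equiv.Perm.mul_apply]
      refine Subtype.ext ?_
      have hmul : (c i one : ZMod p) * (τ one : ZMod p) = (z : ZMod p) := by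
        rw [hi, div_mul_cancel₀ _ (τ one).2]
      rw [← hmul]
      simp [c, scalePerm_apply, one]
  have hNZ : Fintype.card (NZ p) = 2 * e := by
    rw [Fintype.card_subtype_compl, Fintype.card_subtype_eq, ZMod.card]; omega
  have hbij : Function.Bijective fun d : DihedralGroup e => φ d one := by
    refine (Fintype.bijective_iff_surjective_and_card _).2 ⟨hDtr, ?_⟩
    rw [DihedralGroup.card, hNZ]
  have hφinj : Function.Injective φ := fun a b hab => hbij.1 (by simp only [hab])
  -- primitivity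
  have hSone : ∀ z : NZ p, ∃ π ∈ nzImage G, π one = z := by
    intro z
    obtain ⟨g, g0, g1⟩ := is_two_pretransitive_iff.1 h.two zero_ne_one z.2.symm
    obtain ⟨π, hπ, hπz⟩ := exists_nzImage g g0
    exact ⟨π, hπ, Subtype.ext ((hπz one).trans g1)⟩
  have hStr : IsPretransitive S (NZ p) := ⟨fun x y => by
    obtain ⟨a, ha, hax⟩ := hSone x
    obtain ⟨b, hb, hby⟩ := hSone y
    refine ⟨⟨b * a⁻¹, hKS (mul_mem hb (inv_mem ha))⟩, ?_⟩
    show (b * a⁻¹) x = y
    rw [Equiv.Perm.mul_apply, ← hax, Equiv.Perm.inv_def, Equiv.symm_apply_apply, hby]⟩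
  have hprim : IsPreprimitive S (NZ p) := by
    refine IsPreprimitive.of_isTrivialBlock_base one fun {B} hB1 hB => ?_
    unfold MulAction.IsTrivialBlock
    by_contra hnon
    rw [not_or] at hnon
    let B' : Set (ZMod p) := {j | ∃ hj : j ≠ 0, (⟨j, hj⟩ : NZ p) ∈ B}
    refine BlockData.false_of_seven_lt (B := B')
      ⟨h, ⟨one_ne_zero, hB1⟩, fun hh => hh.1 rfl, ?_, ?_, ?_⟩ hp7
    · intro g g0 x hx hgx y
      obtain ⟨π, hπ, hπz⟩ := exists_nzImage g g0
      obtain ⟨hx0, hxB⟩ := hx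
      obtain ⟨hgx0, hgxB⟩ := hgx
      let k : S := ⟨π, hKS hπ⟩
      have hk : ∀ z : NZ p, ((k • z : NZ p) : ZMod p) = g • (z : ZMod p) := hπz
      have heq : k • B = B := by
        by_contra hne'
        have hd := hB (g₁ := k) (g₂ := 1) (by rwa [one_smul])
        rw [one_smul] at hd
        refine Set.disjoint_left.1 hd (Set.smul_mem_smul_set hxB) ?_
        rwa [show k • (⟨x, hx0⟩ : NZ p) = ⟨g • x, hgx0⟩ from Subtype.ext (hk _)]
      constructor
      · rintro ⟨hy0, hyB⟩
        have hy : y ≠ 0 := fun e' => hy0 (by rw [e', g0])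
        refine ⟨hy, ?_⟩
        rw [← Set.smul_mem_smul_set_iff (a := k), heq]
        rwa [show k • (⟨y, hy⟩ : NZ p) = ⟨g • y, hy0⟩ from Subtype.ext (hk _)]
      · rintro ⟨hy, hyB⟩
        have hy0 : g • y ≠ 0 := fun e' => hy (smul_left_cancel g (e'.trans g0.symm))
        refine ⟨hy0, ?_⟩
        rw [← heq, show (⟨g • y, hy0⟩ : NZ p) = k • ⟨y, hy⟩ from (Subtype.ext (hk ⟨y, hy⟩)).symm]
        exact Set.smul_mem_smul_set hyB
    · by_contra! hall
      refine hnon.1 fun a ha b hb => Subtype.ext ?_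
      rw [hall a.1 ⟨a.2, ha⟩, hall b.1 ⟨b.2, hb⟩]
    · by_contra! hall
      refine hnon.2 (Set.eq_univ_of_forall fun a => ?_)
      obtain ⟨_, hB'⟩ := hall a.1 a.2
      exact hB'
  let D : Subgroup S := φ.range.subgroupOf S
  have hDiso : Nonempty (↥D ≃* DihedralGroup e) :=
    ⟨(Subgroup.subgroupOfEquivOfLe hφS).trans (MonoidHom.ofInjective hφinj).symm⟩
  have hDreg : IsPretransitive ↥D (NZ p) ∧ ∀ a : NZ p, stabilizer ↥D a = ⊥ := by
    constructor
    · refine ⟨fun x y => ?_⟩
      obtain ⟨a, ha⟩ := hDtr x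
      obtain ⟨b, hb⟩ := hDtr y
      refine ⟨⟨⟨φ (b * a⁻¹), hφS ⟨_, rfl⟩⟩, Subgroup.mem_subgroupOf.2 ⟨_, rfl⟩⟩, ?_⟩
      show φ (b * a⁻¹) x = y
      rw [map_mul, map_inv, Equiv.Perm.mul_apply, ← ha, Equiv.Perm.inv_def, Equiv.symm_apply_apply, hb]
    · intro a
      refine (Subgroup.eq_bot_iff_forall _).2 ?_
      rintro ⟨⟨π, hπS⟩, hπ⟩ hfix
      obtain ⟨d, hd⟩ := Subgroup.mem_subgroupOf.1 hπ
      obtain ⟨a', ha'⟩ := hDtr a
      have hfix' : π a = a := hfix
      have : φ (a'⁻¹ * d * a') one = φ 1 one := by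
        rw [map_mul, map_mul, map_inv, map_one, Equiv.Perm.mul_apply, Equiv.Perm.mul_apply, ha',
          show φ d = π from hd, hfix', ← ha', Equiv.Perm.inv_def, Equiv.symm_apply_apply,
          Equiv.Perm.one_apply]
      have hd1 : d = 1 := by
        have := hbij.1 this
        rwa [mul_assoc, inv_mul_eq_iff_eq_mul, mul_one, mul_eq_right] at this
      exact Subtype.ext (Subtype.ext ((show φ d = π from hd).symm.trans (by rw [hd1, map_one]; rfl)))
  have htwoS : IsMultiplyPretransitive S (NZ p) 2 :=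
    Cfsg.Agent.S3572.result hprim D e hDiso hDreg
  -- descend to the point stabiliser
  refine h.three_pretransitive fun z z' z0 z1 z0' z1' => ?_
  let J : Subgroup S := stabilizer S one
  let X := {w : NZ p // w ≠ one}
  let _ : MulAction J X :=
    { smul := fun j w => ⟨(j : S) • w.1,
        fun e' => w.2 (smul_left_cancel (j : S) (e'.trans j.2.symm))⟩
      one_smul := fun w => Subtype.ext (one_smul S w.1)
      mul_smul := fun a b w => Subtype.ext (mul_smul (a : S) (b : S) w.1) }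
  have hJtr : IsPretransitive J X := ⟨fun x y => by
    obtain ⟨g, g1, gx⟩ := is_two_pretransitive_iff.1 htwoS x.2.symm y.2.symm
    exact ⟨⟨g, g1⟩, Subtype.ext gx⟩⟩
  have hX : Odd (Fintype.card X) := by
    rw [Fintype.card_subtype_compl, Fintype.card_subtype_eq, hNZ, Nat.odd_iff]; omega
  obtain ⟨j, hjK, hj⟩ := pretransitive_index_two (J := J) (X := X)
    (((nzImage G).subgroupOf S).subgroupOf J)
    (fun a b ha hb => by
      simp only [Subgroup.mem_subgroupOf] at ha hb ⊢
      have ha' := (a : S).2.resolve_left ha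
      have hb' := (b : S).2.resolve_left hb
      have := mul_mem (inv_mem ha') hb'
      rwa [mul_inv_rev, mul_assoc, inv_mul_cancel_left] at this)
    hJtr hX ⟨⟨z, z0⟩, fun e' => z1 (congrArg Subtype.val e')⟩
    ⟨⟨z', z0'⟩, fun e' => z1' (congrArg Subtype.val e')⟩
  obtain ⟨g, g0, hg⟩ := Subgroup.mem_subgroupOf.1 (Subgroup.mem_subgroupOf.1 hjK)
  refine ⟨g, g0, ?_, ?_⟩
  · exact (hg one).symm.trans (congrArg Subtype.val (show (j : S) • one = one from j.2))
  · exact (hg ⟨z, z0⟩).symm.trans (congrArg (fun w : X => ((w.1 : NZ p) : ZMod p)) hj)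

end CfsgLib.PrimeDegreeIto
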